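import Cfsg.Agent.H984.Bs.OmegaGen

/-!
# UX (S5716), UF1: growth in orthogonal groups with an arbitrary quadratic form (helper124)

The lemmas `four`, `five`, `side`, `block` of `H984/Bs/OmegaGen` (helper984) for an arbitrary quadratic form `Q`; only the
subspace `W` is nondegenerate.
-/

set_option autoImplicit false

namespace Cfsg.Agent.H124.UX

open QuadraticMap Cfsg.Agent.LieClassical.OrthCore Cfsg.Agent.LieClassical.OrthTrans
  Cfsg.Agent.LieClassical.OrthFinite Cfsg.Agent.H883.Root Cfsg.Agent.H883.Sub Cfsg.Agent.H847.Bs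
open Cfsg.Agent.H984.Bs (Lr HasW PP mem_PP mem_PP_of_one comp_PP resG has_resG has_of_resG hasW_sup isotropic_of iso_of_max
  RR mem_RR RR_conj sing_avoid finrank_span_pair_le finrank_span_single_le exists_compl)

section sing

variable {F V : Type*} [Field F] [AddCommGroup V] [Module F V] [FiniteDimensional F V] {Q : QuadraticForm F V}

theorem finrank_inf_perpG (W T : Submodule F V) :
    Module.finrank F W ≤ Module.finrank F (W ⊓ perp Q T : Submodule F V) + Module.finrank F T := by
  let f : W →ₗ[F] Module.Dual F T := T.subtype.dualMap ∘ₗ (polarBilin Q).flip ∘ₗ W.subtype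
  have hf : ∀ (w : W) (t : T), f w t = polar Q (t : V) (w : V) := fun w t => rfl
  have h1 := LinearMap.finrank_range_add_finrank_ker f
  have h2 : Module.finrank F (LinearMap.range f) ≤ Module.finrank F T := by
    rw [← Subspace.dual_finrank_eq (K := F) (V := T)]
    exact Submodule.finrank_le _
  have h3 : Module.finrank F (LinearMap.ker f) ≤ Module.finrank F (W ⊓ perp Q T : Submodule F V) := by
    rw [← Submodule.finrank_map_subtype_eq W (LinearMap.ker f)]
    refine Submodule.finrank_mono ?_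
    rintro _ ⟨w, hw, rfl⟩
    refine ⟨w.2, mem_perp.2 fun t ht => ?_⟩
    have := congrArg (fun g => g ⟨t, ht⟩) (LinearMap.mem_ker.1 hw)
    exact this
  omega

/-- singular vectors orthogonal to `T` and outside `T'` -/
theorem ex_singG [Finite F] (W T T' : Submodule F V)
    (h : Module.finrank F T + Module.finrank F T' + 3 ≤ Module.finrank F W) :
    ∃ w ∈ W, (∀ t ∈ T, polar Q t w = 0) ∧ w ∉ T' ∧ Q w = 0 := by
  have h1 := finrank_inf_perpG (Q := Q) W T
  obtain ⟨w, hw, hw', hQw⟩ := sing_avoid (Q := Q) (W ⊓ perp Q T) T' (by omega)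
  exact ⟨w, hw.1, fun t ht => mem_perp.1 hw.2 t ht, hw', hQw⟩

/-- separation inside a nondegenerate subspace -/
theorem sepG {W T : Submodule F V} (hW : NondegOn Q W) (hTW : T ≤ W) {x : V} (hx : x ∈ W) (hxT : x ∉ T) :
    ∃ n ∈ W, (∀ t ∈ T, polar Q t n = 0) ∧ polar Q x n ≠ 0 := by
  have hQ' : Nondeg (res Q W) := hW.res
  obtain ⟨n, -, hn, hxn⟩ := Cfsg.Agent.H984.Bs.sep hQ' (W := ⊤) (T := T.comap W.subtype) (fun y _ hy => hQ' y fun z =>
    hy z Submodule.mem_top) le_top (x := ⟨x, hx⟩) Submodule.mem_top hxT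
  exact ⟨n, n.2, fun t ht => hn ⟨t, hTW ht⟩ ht, hxn⟩

/-- a singular vector orthogonal to `a` and not to `c` -/
theorem ex_moveG [Finite F] {W : Submodule F V} (hW : NondegOn Q W) (hd : 8 ≤ Module.finrank F W)
    {a c : V} (ha : a ∈ W) (hc : c ∈ W) (hac : c ∉ Submodule.span F {a}) :
    ∃ x ∈ W, Q x = 0 ∧ polar Q a x = 0 ∧ polar Q c x ≠ 0 := by
  have hT : Submodule.span F {a, c} ≤ W := by
    rw [Submodule.span_le]
    rintro z (rfl | hz)
    · exact ha
    · rw [Set.mem_singleton_iff] at hz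
      rw [hz]; exact hc
  have haT : a ∈ Submodule.span F {a, c} := Submodule.subset_span (by simp)
  have hcT : c ∈ Submodule.span F {a, c} := Submodule.subset_span (by simp)
  have hf := finrank_span_pair_le (F := F) a c
  obtain ⟨x0, hx0W, hx0, hx0T, hQx0⟩ := ex_singG W (Submodule.span F {a, c}) (Submodule.span F {a, c}) (by omega)
  obtain ⟨n, hnW, hn, hnx⟩ := sepG hW hT hx0W hx0T
  obtain ⟨z, hzW, hz, hzc⟩ := sepG hW (T := Submodule.span F {a})
    (by rw [Submodule.span_le, Set.singleton_subset_iff]; exact ha) hc hac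
  obtain ⟨z', hz'W, hz'a, hz'c, hz'x⟩ : ∃ z' ∈ W, polar Q a z' = 0 ∧ polar Q c z' ≠ 0 ∧ polar Q x0 z' ≠ 0 := by
    by_cases h : polar Q x0 z = 0
    · refine ⟨z + n, W.add_mem hzW hnW, ?_, ?_, ?_⟩
      · rw [polar_add_right, hz a (Submodule.mem_span_singleton_self a), hn a haT, add_zero]
      · rw [polar_add_right, hn c hcT, add_zero]; exact hzc
      · rw [polar_add_right, h, zero_add]; exact hnx
    · exact ⟨z, hzW, hz a (Submodule.mem_span_singleton_self a), hzc, h⟩
  have e1 : polar Q z' x0 ≠ 0 := by rwa [polar_comm]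
  refine ⟨z' + (-(Q z' * (polar Q z' x0)⁻¹)) • x0, W.add_mem hz'W (W.smul_mem _ hx0W), ?_, ?_, ?_⟩
  · rw [Q_add, QuadraticMap.map_smul, hQx0, polar_smul_right, smul_eq_mul, smul_eq_mul]
    field_simp
    ring
  · rw [polar_add_right, hz'a, polar_smul_right, hx0 a haT, smul_zero, add_zero]
  · rw [polar_add_right, polar_smul_right, hx0 c hcT, smul_zero, add_zero]
    exact hz'c

/-- a totally singular line orthogonal to `a` and not to `c` -/
theorem ex_lineG [Finite F] {W : Submodule F V} (hW : NondegOn Q W) (hd : 8 ≤ Module.finrank F W)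
    {a c : V} (ha : a ∈ W) (hc : c ∈ W) (hac : c ∉ Submodule.span F {a}) :
    ∃ x ∈ W, ∃ y ∈ W, Q x = 0 ∧ Q y = 0 ∧ polar Q x y = 0 ∧ y ∉ Submodule.span F {x} ∧ polar Q a x = 0 ∧
      polar Q a y = 0 ∧ polar Q c x ≠ 0 := by
  obtain ⟨x, hxW, hQx, hax, hcx⟩ := ex_moveG hW hd ha hc hac
  have h1 := finrank_span_pair_le (F := F) a x
  have h2 := finrank_span_single_le (F := F) x
  obtain ⟨y, hyW, hy, hyx, hQy⟩ := ex_singG W (Submodule.span F {a, x}) (Submodule.span F {x}) (by omega)
  exact ⟨x, hxW, y, hyW, hQx, hQy, hy x (Submodule.subset_span (by simp)), hyx, hax,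
    hy a (Submodule.subset_span (by simp)), hcx⟩


end sing

variable {F V : Type*} [Field F] [AddCommGroup V] [Module F V] {Q : QuadraticForm F V} {H : Subgroup (V ≃ₗ[F] V)}

section fin

variable [Finite F] [FiniteDimensional F V] {W : Submodule F V}

/-- (4) -/
theorem four (hH : H ≤ O Q) (hW : NondegOn Q W) (hd8 : 8 ≤ Module.finrank F W) (hasW : HasW Q H W)
    {a b c d : V} (ha : a ∈ W) (hb : b ∈ perp Q W) (hc : c ∈ W) (hd : d ∈ perp Q W) (h : Lr Q H (a + b) (c + d))
    (hac : c ∉ Submodule.span F {a}) : b ∈ PP Q H W := by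
  obtain ⟨x, hx, y, hy, hQx, hQy, hxy, hyx, hax, hay, hcx⟩ := ex_lineG hW hd8 ha hc hac
  have hHas := hasW x hx y hy hQx hxy
  have hgH := hHas.mem hQx hxy
  have hax' : polar Q x a = 0 := by rwa [polar_comm]
  have hay' : polar Q y a = 0 := by rwa [polar_comm]
  have hbx : polar Q x b = 0 := mem_perp.1 hb x hx
  have hby : polar Q y b = 0 := mem_perp.1 hb y hy
  have hdx : polar Q x d = 0 := mem_perp.1 hd x hx
  have hdy : polar Q y d = 0 := mem_perp.1 hd y hy
  have hcx' : polar Q x c ≠ 0 := by rwa [polar_comm]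
  set x' : V := polar Q x c • y - polar Q y c • x with hx'
  have e1 : siegel Q x y hQx hxy (a + b) = a + b := by
    rw [siegel_apply, polar_add_right, polar_add_right, hax', hay', hbx, hby]
    simp
  have e2 : siegel Q x y hQx hxy (c + d) = (c + d) + x' := by
    rw [siegel_apply, polar_add_right, polar_add_right, hdx, hdy, hQy, hx']
    simp only [add_zero, zero_mul, zero_smul, sub_zero]
    abel
  have hQx' : Q x' = 0 := by
    rw [hx', sub_eq_add_neg, Q_add, QuadraticMap.map_neg, QuadraticMap.map_smul, QuadraticMap.map_smul, hQx, hQy,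
      polar_neg_right, polar_smul_left, polar_smul_right, polar_comm Q y x, hxy]
    simp
  have hx'W : x' ∈ W := W.sub_mem (W.smul_mem _ hy) (W.smul_mem _ hx)
  have hx'0 : x' ≠ 0 := by
    intro h0
    apply hyx
    rw [Submodule.mem_span_singleton]
    refine ⟨(polar Q x c)⁻¹ * polar Q y c, ?_⟩
    rw [hx', sub_eq_zero] at h0
    rw [mul_smul, ← h0, smul_smul, inv_mul_cancel₀ hcx', one_smul]
  have h1 := h.map (hH hgH) hgH
  rw [e1, e2] at h1
  have h2 := h1.sub h (by rw [add_sub_cancel_left]; exact hQx')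
  rw [add_sub_cancel_left] at h2
  exact comp_PP hH hW (by omega) hasW hx'W hQx' hx'0 ha hb h2.swap.2.2.2

/-- (5) -/
theorem five (hH : H ≤ O Q) (hW : NondegOn Q W) (hd8 : 8 ≤ Module.finrank F W) (hasW : HasW Q H W)
    (hiso : ∀ p ∈ PP Q H W, ∀ p' ∈ PP Q H W, polar Q p p' = 0) {p s t : V} (hp : p ∈ PP Q H W) (h : Lr Q H s t)
    (hs : polar Q s p ≠ 0) (ht : polar Q t p = 0) : t ∈ PP Q H W := by
  obtain ⟨a, ha, b, hb, rfl⟩ := hW.exists_decomp s
  obtain ⟨c, hc, d, hd, rfl⟩ := hW.exists_decomp t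
  have hap : polar Q a p = 0 := mem_perp.1 hp.1 a ha
  have hcp : polar Q c p = 0 := mem_perp.1 hp.1 c hc
  -- the transformations `siegel x p`
  have key : ∀ x ∈ W, Q x = 0 → polar Q x a = 0 → polar Q x c = 0 →
      Lr Q H ((a - polar Q (a + b) p • x) + b) (c + d) := by
    intro x hx hQx hxa hxc
    have hHas := hp.2 x hx hQx 1
    rw [one_smul] at hHas
    have hxp := hHas.perp
    have hgH := hHas.mem hQx hxp
    have h1 := h.map (hH hgH) hgH
    have e1 : siegel Q x p hQx hxp (a + b) = (a - polar Q (a + b) p • x) + b := by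
      rw [siegel_apply, polar_add_right Q x a b, hxa, mem_perp.1 hb x hx, polar_comm Q p (a + b)]
      simp only [add_zero, zero_smul, mul_zero, sub_zero]
      abel
    have e2 : siegel Q x p hQx hxp (c + d) = c + d := by
      rw [siegel_apply, polar_add_right Q x c d, hxc, mem_perp.1 hd x hx, polar_comm Q p (c + d), ht]
      simp
    rwa [e1, e2] at h1
  have hc0 : c = 0 := by
    by_contra hc0
    have hf := finrank_span_pair_le (F := F) a c
    obtain ⟨x, hx, hxo, hxn, hQx⟩ := ex_singG W (Submodule.span F {a, c}) (Submodule.span F {a, c}) (by omega)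
    have h1 := key x hx hQx (by rw [polar_comm]; exact hxo a (Submodule.subset_span (by simp)))
      (by rw [polar_comm]; exact hxo c (Submodule.subset_span (by simp)))
    have h2 : b ∈ PP Q H W := by
      refine four hH hW hd8 hasW (W.sub_mem ha (W.smul_mem _ hx)) hb hc hd h1 ?_
      intro hmem
      obtain ⟨k, hk⟩ := Submodule.mem_span_singleton.1 hmem
      by_cases hk0 : k = 0
      · rw [hk0, zero_smul] at hk
        exact hc0 hk.symm
      · apply hxn
        rw [Submodule.mem_span_pair]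
        refine ⟨(polar Q (a + b) p)⁻¹, -((polar Q (a + b) p)⁻¹ * k⁻¹), ?_⟩
        have h3 : polar Q (a + b) p • x = a - k⁻¹ • c := by
          rw [← hk, smul_smul, inv_mul_cancel₀ hk0, one_smul]
          abel
        have h4 : x = (polar Q (a + b) p)⁻¹ • (polar Q (a + b) p • x) := by
          rw [smul_smul, inv_mul_cancel₀ hs, one_smul]
        rw [h4, h3]
        module
    have h3 := hiso b h2 p hp
    rw [polar_add_left, hap, h3, add_zero] at hs
    exact hs rfl
  subst hc0
  -- a vector with nonzero first component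
  obtain ⟨a', ha', hn, hLr⟩ : ∃ a' ∈ W, a' ≠ 0 ∧ Lr Q H (a' + b) (0 + d) := by
    by_cases ha0 : a = 0
    · obtain ⟨x, hx, -, hxn, hQx⟩ := ex_singG W ⊥ ⊥ (by rw [finrank_bot]; omega)
      have h1 := key x hx hQx (by rw [ha0, polar_zero_right]) (polar_zero_right Q x)
      refine ⟨_, W.sub_mem ha (W.smul_mem _ hx), ?_, h1⟩
      rw [ha0, zero_sub, neg_ne_zero]
      rw [ha0] at hs
      exact smul_ne_zero hs (fun h0 => hxn (by rw [h0]; exact Submodule.zero_mem _))
    · exact ⟨a, ha, ha0, h⟩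
  rw [zero_add]
  refine four hH hW hd8 hasW W.zero_mem hd ha' hb hLr.swap ?_
  rw [Submodule.span_zero_singleton, Submodule.mem_bot]
  exact hn

/-- (5') -/
theorem five' (hH : H ≤ O Q) (hW : NondegOn Q W) (hd8 : 8 ≤ Module.finrank F W) (hasW : HasW Q H W)
    (hiso : ∀ p ∈ PP Q H W, ∀ p' ∈ PP Q H W, polar Q p p' = 0) {p s t : V} (hp : p ∈ PP Q H W) (h : Lr Q H s t) :
    polar Q s p • t - polar Q t p • s ∈ PP Q H W := by
  have key : ∀ s t : V, Lr Q H s t → polar Q s p ≠ 0 → polar Q s p • t - polar Q t p • s ∈ PP Q H W := by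
    intro s t h hs
    have h1 := five hH hW hd8 hasW hiso hp (h.sub_self (polar Q t p * (polar Q s p)⁻¹)) hs (by
      rw [polar_sub_left, polar_smul_left, smul_eq_mul, mul_assoc, inv_mul_cancel₀ hs, mul_one, sub_self])
    have h2 := (PP Q H W).smul_mem (polar Q s p) h1
    rw [smul_sub, smul_smul, mul_comm (polar Q t p), ← mul_assoc, mul_inv_cancel₀ hs, one_mul] at h2
    exact h2
  by_cases hs : polar Q s p = 0
  · by_cases ht : polar Q t p = 0
    · rw [hs, ht, zero_smul, zero_smul, sub_zero]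
      exact Submodule.zero_mem _
    · have h1 := (PP Q H W).neg_mem (key t s h.swap ht)
      rwa [neg_sub] at h1
  · exact key s t h hs


theorem RR_inv_PP (hH : H ≤ O Q) (hW : NondegOn Q W) (hd8 : 8 ≤ Module.finrank F W) (hasW : HasW Q H W)
    (hiso : ∀ p ∈ PP Q H W, ∀ p' ∈ PP Q H W, polar Q p p' = 0) : ∀ r ∈ RR Q H, Inv r (PP Q H W) := by
  have key : RR Q H ≤ Cfsg.Agent.H883.Bridge.stab (PP Q H W) := by
    rw [RR, Subgroup.closure_le]
    rintro _ ⟨s, t, hs, ht, hL, rfl⟩
    refine Cfsg.Agent.H883.Bridge.mem_stab_of_le fun p hp => ?_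
    have h1 := five' hH hW hd8 hasW hiso hp hL
    rw [siegel_apply, hL.2.1, zero_mul, zero_smul, sub_zero, add_sub_assoc]
    exact Submodule.add_mem _ hp h1
  intro r hr v hv
  exact (Cfsg.Agent.H883.Bridge.mem_stab.1 (key hr) v).1 hv


/-! ### (7) -/

theorem side (hH : H ≤ O Q) (hW : NondegOn Q W) (hd8 : 8 ≤ Module.finrank F W) (hasW : HasW Q H W)
    (hbot : PP Q H W = ⊥) {s t : V} (h : Lr Q H s t) (hs : s ≠ 0) (hst : t ∉ Submodule.span F {s}) :
    (s ∈ W ∧ t ∈ W) ∨ (s ∈ perp Q W ∧ t ∈ perp Q W) := by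
  obtain ⟨a, ha, b, hb, rfl⟩ := hW.exists_decomp s
  obtain ⟨c, hc, d, hd, rfl⟩ := hW.exists_decomp t
  have hb0 : c ∉ Submodule.span F {a} → b = 0 := by
    intro hn
    have := four hH hW hd8 hasW ha hb hc hd h hn
    rwa [hbot, Submodule.mem_bot] at this
  have hd0 : a ∉ Submodule.span F {c} → d = 0 := by
    intro hn
    have := four hH hW hd8 hasW hc hd ha hb h.swap hn
    rwa [hbot, Submodule.mem_bot] at this
  by_cases h1 : c ∈ Submodule.span F {a}
  · by_cases h2 : a ∈ Submodule.span F {c}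
    · by_cases ha0 : a = 0
      · right
        have hc0 : c = 0 := by
          rw [ha0, Submodule.span_zero_singleton, Submodule.mem_bot] at h1
          exact h1
        rw [ha0, hc0, zero_add, zero_add]
        exact ⟨hb, hd⟩
      · exfalso
        obtain ⟨k, hk⟩ := Submodule.mem_span_singleton.1 h1
        have h3 := h.sub_self k
        have e : c + d - k • (a + b) = 0 + (d - k • b) := by
          rw [← hk]; module
        rw [e] at h3
        have h4 := four hH hW hd8 hasW W.zero_mem (Submodule.sub_mem _ hd (Submodule.smul_mem _ k hb)) ha hb h3.swap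
          (by rw [Submodule.span_zero_singleton, Submodule.mem_bot]; exact ha0)
        rw [hbot, Submodule.mem_bot] at h4
        rw [h4, add_zero, sub_eq_zero] at e
        apply hst
        rw [e]
        exact Submodule.smul_mem _ _ (Submodule.mem_span_singleton_self _)
    · -- `a ∉ ⟨c⟩`, `c ∈ ⟨a⟩`: then `c = 0`, `d = 0`, `t = 0`
      exfalso
      have h3 := hd0 h2
      obtain ⟨k, hk⟩ := Submodule.mem_span_singleton.1 h1
      by_cases hk0 : k = 0
      · rw [hk0, zero_smul] at hk
        apply hst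
        rw [← hk, h3, add_zero]
        exact Submodule.zero_mem _
      · apply h2
        rw [Submodule.mem_span_singleton]
        exact ⟨k⁻¹, by rw [← hk, smul_smul, inv_mul_cancel₀ hk0, one_smul]⟩
  · have hb1 := hb0 h1
    by_cases h2 : a ∈ Submodule.span F {c}
    · exfalso
      obtain ⟨k, hk⟩ := Submodule.mem_span_singleton.1 h2
      by_cases hk0 : k = 0
      · rw [hk0, zero_smul] at hk
        apply hs
        rw [← hk, hb1, add_zero]
      · apply h1
        rw [Submodule.mem_span_singleton]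
        exact ⟨k⁻¹, by rw [← hk, smul_smul, inv_mul_cancel₀ hk0, one_smul]⟩
    · left
      rw [hb1, hd0 h2, add_zero, add_zero]
      exact ⟨ha, hc⟩

/-! ### (8) -/

theorem block (hH : H ≤ O Q) (hW : NondegOn Q W) (hd8 : 8 ≤ Module.finrank F W) (hasW : HasW Q H W)
    (hbot : PP Q H W = ⊥) {h : V ≃ₗ[F] V} (hh : h ∈ H) :
    (∀ x ∈ W, h x ∈ W) ∨ (∀ x ∈ W, h x ∈ perp Q W) := by
  have hside : ∀ x ∈ W, ∀ y ∈ W, Q x = 0 → Q y = 0 → polar Q x y = 0 → x ≠ 0 → y ∉ Submodule.span F {x} →
      (h x ∈ W ∧ h y ∈ W) ∨ (h x ∈ perp Q W ∧ h y ∈ perp Q W) := by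
    intro x hx y hy hQx hQy hxy hx0 hxy'
    refine side hH hW hd8 hasW hbot ((hasW.lr hx hy hQx hQy hxy).map (hH hh) hh) ?_ ?_
    · intro h0
      exact hx0 (h.injective (by rw [h0, map_zero]))
    · intro hm
      obtain ⟨k, hk⟩ := Submodule.mem_span_singleton.1 hm
      apply hxy'
      rw [Submodule.mem_span_singleton]
      exact ⟨k, h.injective (by rw [map_smul, hk])⟩
  have hnot : ∀ v : V, v ∈ W → v ∈ perp Q W → v = 0 := fun v hv hv' =>
    hW v hv fun z hz => mem_perp'.1 hv' z hz
  have hG : Good (res Q W) := good_res hW (by omega)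
  obtain ⟨x, x', hxx⟩ := hG.exists_hyp
  have hQx : Q (x : V) = 0 := hxx.left
  have hx0 : (x : V) ≠ 0 := fun h0 => hxx.left_ne (Subtype.ext h0)
  have hall : ∀ y ∈ W, Q y = 0 → (h x ∈ W → h y ∈ W) ∧ (h x ∈ perp Q W → h y ∈ perp Q W) ∧
      (h x ∈ W ∨ h x ∈ perp Q W) := by
    intro y hy hQy
    have hf := finrank_span_pair_le (F := F) (x : V) y
    obtain ⟨z, hz, hzo, hzn, hQz⟩ := ex_singG W (Submodule.span F {(x : V), y}) (Submodule.span F {(x : V), y})
      (by omega)
    have hxz := hzo x (Submodule.subset_span (by simp))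
    have hyz := hzo y (Submodule.subset_span (by simp))
    have hz0 : z ≠ 0 := fun h0 => hzn (by rw [h0]; exact Submodule.zero_mem _)
    have h1 := hside x x.2 z hz hQx hQz hxz hx0 (fun hm => hzn (Submodule.span_mono (by simp) hm))
    have hhz0 : h z ≠ 0 := fun h0 => hz0 (h.injective (by rw [h0, map_zero]))
    have hhx0 : h x ≠ 0 := fun h0 => hx0 (h.injective (by rw [h0, map_zero]))
    by_cases hy0 : y = 0
    · rw [hy0, map_zero]
      exact ⟨fun _ => W.zero_mem, fun _ => Submodule.zero_mem _, h1.imp And.left And.left⟩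
    have h2 := hside y hy z hz hQy hQz hyz hy0 (fun hm => hzn (Submodule.span_mono (by simp) hm))
    refine ⟨fun hxW => ?_, fun hxW => ?_, h1.imp And.left And.left⟩
    · rcases h1 with h1 | h1
      · rcases h2 with h2 | h2
        · exact h2.1
        · exact absurd (hnot _ h1.2 h2.2) hhz0
      · exact absurd (hnot _ hxW h1.1) hhx0
    · rcases h1 with h1 | h1
      · exact absurd (hnot _ h1.1 hxW) hhx0
      · rcases h2 with h2 | h2
        · exact absurd (hnot _ h2.2 h1.2) hhz0
        · exact h2.1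
  rcases (hall 0 W.zero_mem (QuadraticMap.map_zero Q)).2.2 with hx | hx
  · left
    intro v hv
    exact sing_induction hxx (P := fun v : W => h (v : V) ∈ W)
      (fun a c ha hc => by
        show h ((a : V) + (c : V)) ∈ W
        rw [map_add]; exact W.add_mem ha hc)
      (fun a ha => (hall a a.2 ha).1 hx) ⟨v, hv⟩
  · right
    intro v hv
    exact sing_induction hxx (P := fun v : W => h (v : V) ∈ perp Q W)
      (fun a c ha hc => by
        show h ((a : V) + (c : V)) ∈ perp Q W
        rw [map_add]; exact Submodule.add_mem _ ha hc)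
      (fun a ha => (hall a a.2 ha).2.1 hx) ⟨v, hv⟩

end fin

end Cfsg.Agent.H124.UX
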