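import Cfsg.Agent.H124.UX.Gen
import Cfsg.Agent.H124.UX.LftDefs
import Cfsg.Agent.H141.Ux.Stmts
import Cfsg.Agent.H24.Bs.GenSp

/-!
# UX (S5716), UF1: growth, symplectic groups in characteristic two (helper124)

`uf1_of (h : ExLft) : UF1`.
-/

set_option autoImplicit false

namespace Cfsg.Agent.H124.UX

open QuadraticMap Cfsg.Agent.LieClassical.OrthCore Cfsg.Agent.LieClassical.OrthTrans
  Cfsg.Agent.LieClassical.OrthFinite Cfsg.Agent.H883.Root Cfsg.Agent.H883.Sub Cfsg.Agent.H847.Bs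
open Cfsg.Agent.H984.Bs (Lr HasW PP mem_PP mem_PP_of_one comp_PP iso_of_max RR mem_RR RR_conj finrank_span_pair_le
  finrank_span_single_le exists_compl)
open Cfsg.Agent.H24.Bs (Cen Ctr blk_of_max B_zero_left B_zero_right B_swap B_smul_right bil bil_alt bil_apply)

section ctr

variable {F V : Type*} [Field F] [AddCommGroup V] [Module F V] {Φ : Frm F V} {H : Subgroup (V ≃ₗ[F] V)}

/-- BS31 for a nondegenerate space of centres -/
theorem gen_ctr [FiniteDimensional F V] (hΦ : IsSp Φ) (hH : H ≤ Φ.Iso) (hirr : IrrG H) {W : Submodule F V}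
    (hWc : Ctr Φ H W) (hq : 4 ≤ Module.finrank F W) : Φ.Iso ≤ H ∨ ∃ D : Submodule F V, Blk Φ H D ∧ W ≤ D := by
  have hwf : WellFounded (fun a b : Submodule F V => a > b) := wellFounded_gt
  obtain ⟨D, ⟨hWD, hD⟩, hmax⟩ := hwf.has_min {D : Submodule F V | W ≤ D ∧ Ctr Φ H D} ⟨W, le_rfl, hWc⟩
  have hmax' : ∀ D' : Submodule F V, D < D' → ¬ Ctr Φ H D' := fun D' h1 h2 =>
    hmax D' ⟨hWD.trans h1.le, h2⟩ h1
  have hfin := Submodule.finrank_mono hWD
  have hD0 : D ≠ ⊥ := by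
    intro h
    rw [h, finrank_bot] at hfin
    omega
  by_cases hT : D = ⊤
  · left
    intro g hg
    refine Cfsg.Agent.H743.McL.mem_of_isometry (bil hΦ) (bil_alt hΦ) (fun x h => hΦ.nd x h) H (fun a c => ?_) g hg.1
    exact hD.cen a (by rw [hT]; trivial) c
  · right
    exact ⟨D, blk_of_max hΦ hH hirr hD (Or.inr (hq.trans hfin)) hD0 hmax' hT, hWD⟩

end ctr

section lft

variable {F V Vt : Type*} [Field F] [AddCommGroup V] [Module F V] [AddCommGroup Vt] [Module F Vt] {Φ : Frm F V}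
  {H : Subgroup (V ≃ₗ[F] V)} {Qt : QuadraticForm F Vt} {π : Vt →ₗ[F] V} {Ht : Subgroup (Vt ≃ₗ[F] Vt)} {r : Vt}

theorem B_comm (hΦ : IsSp Φ) (h2 : (2 : F) = 0) (x y : V) : Φ.B x y = Φ.B y x := by
  have h := B_swap hΦ x y
  linear_combination h - (Φ.B y x) * h2

theorem sq_surj [Finite F] (h2 : (2 : F) = 0) (c : F) : ∃ d : F, d ^ 2 = c := by
  have : CharP F 2 := CharTwo.of_one_ne_zero_of_two_eq_zero one_ne_zero h2
  obtain ⟨d, hd⟩ := FiniteField.isSquare_of_char_two (ringChar.eq F 2) c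
  exact ⟨d, by rw [hd, pow_two]⟩

theorem Lft.polr (L : Lft Φ H Qt π Ht r) (hΦ : IsSp Φ) (x : Vt) : polar Qt x r = 0 := by
  rw [L.pol, L.kr, B_zero_right hΦ]

theorem Lft.Q_add_r (L : Lft Φ H Qt π Ht r) (hΦ : IsSp Φ) (x : Vt) (c : F) : Qt (x + c • r) = Qt x + c ^ 2 := by
  rw [Q_add, QuadraticMap.map_smul, L.Qr, polar_smul_right, L.polr hΦ, smul_zero, add_zero, smul_eq_mul, mul_one,
    pow_two]

theorem Lft.exists_lift [Finite F] (L : Lft Φ H Qt π Ht r) (hΦ : IsSp Φ) (h2 : (2 : F) = 0) (v : V) (a : F) :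
    ∃ x, π x = v ∧ Qt x = a := by
  obtain ⟨x, rfl⟩ := L.surj v
  obtain ⟨c, hc⟩ := sq_surj h2 (a - Qt x)
  refine ⟨x + c • r, ?_, ?_⟩
  · rw [map_add, map_smul, L.kr, smul_zero, add_zero]
  · rw [L.Q_add_r hΦ, hc]
    ring

theorem Lft.inj (L : Lft Φ H Qt π Ht r) (hΦ : IsSp Φ) {x y : Vt} (h : π x = π y) (hQ : Qt x = Qt y) : x = y := by
  obtain ⟨c, hc⟩ := L.ker (x - y) (by rw [map_sub, h, sub_self])
  have h1 : x = y + c • r := by rw [← hc]; abel
  rw [h1, L.Q_add_r hΦ] at hQ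
  have h3 : c ^ 2 = 0 := by linear_combination hQ
  rw [h1, pow_eq_zero_iff two_ne_zero |>.1 h3, zero_smul, add_zero]

theorem Lft.pi_siegel (L : Lft Φ H Qt π Ht r) {u w : Vt} (hu : Qt u = 0) (hw : polar Qt u w = 0) (x : Vt) :
    π (siegel Qt u w hu hw x) = π x + Φ.B (π u) (π x) • π w - Φ.B (π w) (π x) • π u -
      (Qt w * Φ.B (π u) (π x)) • π u := by
  rw [siegel_apply, map_sub, map_sub, map_add, map_smul, map_smul, map_smul, L.pol, L.pol]

theorem Lft.has_of (L : Lft Φ H Qt π Ht r) {u w : Vt} (hu : Qt u = 0) (hw : polar Qt u w = 0)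
    (h : ∃ g ∈ H, ∀ v, g v = v + Φ.B (π u) v • π w - Φ.B (π w) v • π u - (Qt w * Φ.B (π u) v) • π u) :
    Has Qt Ht u w := by
  obtain ⟨g, hg, h1⟩ := h
  refine ⟨hu, hw, (L.mem _).2 ⟨siegel_mem_O hu hw, g, hg, fun x => ?_⟩⟩
  rw [L.pi_siegel hu hw, h1]

theorem Lft.exists_of (L : Lft Φ H Qt π Ht r) {u w : Vt} (h : Has Qt Ht u w) :
    ∃ g ∈ H, ∀ v, g v = v + Φ.B (π u) v • π w - Φ.B (π w) v • π u - (Qt w * Φ.B (π u) v) • π u := by
  obtain ⟨hu, hw, hm⟩ := h
  obtain ⟨-, g, hg, h1⟩ := (L.mem _).1 hm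
  refine ⟨g, hg, fun v => ?_⟩
  obtain ⟨x, rfl⟩ := L.surj v
  rw [← h1, L.pi_siegel hu hw]

theorem Lft.le_O (L : Lft Φ H Qt π Ht r) : Ht ≤ O Qt := fun g hg => ((L.mem g).1 hg).1

/-- the lift of `(W, q)` -/
def Wt (Qt : QuadraticForm F Vt) (π : Vt →ₗ[F] V) (q : V → F) (W : Submodule F V)
    (h0 : ∀ u ∈ W, ∀ w ∈ W, ∀ x y, π x = u → π y = w → Qt x = q u → Qt y = q w → Qt (x + y) = q (u + w))
    (h1 : ∀ (a : F), ∀ w ∈ W, q (a • w) = a ^ 2 * q w) : Submodule F Vt where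
  carrier := {x | π x ∈ W ∧ Qt x = q (π x)}
  add_mem' := by
    rintro x y ⟨hx, hx'⟩ ⟨hy, hy'⟩
    refine ⟨?_, ?_⟩
    · rw [map_add π x y]; exact W.add_mem hx hy
    · rw [map_add π x y]; exact h0 _ hx _ hy x y rfl rfl hx' hy'
  zero_mem' := by
    refine ⟨?_, ?_⟩
    · rw [map_zero π]; exact W.zero_mem
    · have := h1 0 0 W.zero_mem
      rw [zero_smul] at this
      rw [map_zero π, QuadraticMap.map_zero, this]
      ring
  smul_mem' := by
    rintro a x ⟨hx, hx'⟩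
    refine ⟨?_, ?_⟩
    · rw [map_smul π a x]; exact W.smul_mem _ hx
    · rw [map_smul π a x, QuadraticMap.map_smul, h1 a _ hx, hx', smul_eq_mul, pow_two]

/-- a nondegenerate subspace of `Vt` is mapped injectively -/
theorem Lft.inj_on (L : Lft Φ H Qt π Ht r) {Y : Submodule F Vt} (hY : NondegOn Qt Y) {x : Vt} (hx : x ∈ Y)
    (h : π x = 0) : x = 0 :=
  hY x hx fun z _ => by rw [L.pol, h, B_zero_left]

theorem Lft.finrank_map (L : Lft Φ H Qt π Ht r) {Y : Submodule F Vt} (hY : NondegOn Qt Y) :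
    Module.finrank F (Y.map π) = Module.finrank F Y := by
  have hinj : Function.Injective (π.domRestrict Y) := by
    rw [← LinearMap.ker_eq_bot, eq_bot_iff]
    rintro ⟨x, hx⟩ h
    rw [Submodule.mem_bot]
    exact Subtype.ext (L.inj_on hY hx (LinearMap.mem_ker.1 h))
  have h1 : Y.map π = LinearMap.range (π.domRestrict Y) := by
    rw [LinearMap.range_domRestrict]
  rw [h1]
  exact LinearMap.finrank_range_of_inj hinj

theorem Lft.ndOn (L : Lft Φ H Qt π Ht r) {Y : Submodule F Vt} (hY : NondegOn Qt Y) : Φ.NdOn (Y.map π) := by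
  rintro _ ⟨x, hx, rfl⟩ h
  have : x = 0 := hY x hx fun z hz => by
    rw [L.pol]
    exact h _ ⟨z, hz, rfl⟩
  rw [this]
  exact map_zero π

variable [Finite F] [FiniteDimensional F Vt]

/-- from singular pairs to all Siegel elements -/
theorem hasW_of_sing {Y : Submodule F Vt} (hY : NondegOn Qt Y) (hd : 8 ≤ Module.finrank F Y)
    (h : ∀ u ∈ Y, ∀ w ∈ Y, Qt u = 0 → Qt w = 0 → polar Qt u w = 0 → Has Qt Ht u w) : HasW Qt Ht Y := by
  intro u hu w hw hQu huw
  by_cases hwu : w ∈ Submodule.span F {u}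
  · obtain ⟨c, rfl⟩ := Submodule.mem_span_singleton.1 hwu
    exact has_self hQu c
  · obtain ⟨x, hx, hQx, hux, hwx⟩ := ex_moveG hY hd hu hw hwu
    set c := Qt w * (polar Qt w x)⁻¹ with hc
    have h1 : Qt (w - c • x) = 0 := by
      rw [sub_eq_add_neg, Q_add, QuadraticMap.map_neg, QuadraticMap.map_smul, hQx, polar_neg_right, polar_smul_right,
        smul_eq_mul, smul_eq_mul, hc]
      field_simp
      ring
    have h2 : polar Qt u (w - c • x) = 0 := by
      rw [polar_sub_right, polar_smul_right, huw, hux, smul_zero, sub_zero]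
    have h3 : polar Qt u (c • x) = 0 := by rw [polar_smul_right, hux, smul_zero]
    have h4 : Qt (c • x) = 0 := by rw [QuadraticMap.map_smul, hQx, smul_zero]
    have h5 := (h u hu _ (Y.sub_mem hw (Y.smul_mem c hx)) hQu h1 h2).add (h u hu _ (Y.smul_mem c hx) hQu h4 h3)
    rwa [sub_add_cancel] at h5

/-! ### the case `r ∈ PP` -/

theorem Lft.ctr (L : Lft Φ H Qt π Ht r) (hΦ : IsSp Φ) (h2 : (2 : F) = 0) (hH : H ≤ Φ.Iso) {Y : Submodule F Vt}
    (hY : NondegOn Qt Y) (hd : 8 ≤ Module.finrank F Y) (hr : r ∈ PP Qt Ht Y) : Ctr Φ H (Y.map π) := by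
  -- singular vectors
  have key : ∀ x ∈ Y, Qt x = 0 → Cen Φ H (π x) := by
    intro x hx hQx a
    obtain ⟨c, hc⟩ := sq_surj h2 a
    obtain ⟨g, hg, h1⟩ := L.exists_of (hr.2 x hx hQx c)
    refine ⟨g, hg, fun v => ?_⟩
    rw [h1, map_smul, L.kr, smul_zero, smul_zero, add_zero, B_zero_left, zero_smul, sub_zero, QuadraticMap.map_smul, L.Qr,
      smul_eq_mul, mul_one, ← pow_two, hc, sub_eq_add_neg]
    congr 1
    rw [← neg_smul]
    congr 1
    linear_combination (-(a * Φ.B (π x) v)) * h2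
  refine ⟨L.ndOn hY, ?_⟩
  rintro _ ⟨y, hy, rfl⟩
  by_cases hQy : Qt y = 0
  · exact key y hy hQy
  · have hy0 : y ∉ Submodule.span F {(0 : Vt)} := by
      rw [Submodule.span_zero_singleton, Submodule.mem_bot]
      rintro rfl
      exact hQy (QuadraticMap.map_zero Qt)
    obtain ⟨x, hx, hQx, -, hyx⟩ := ex_moveG hY hd Y.zero_mem hy hy0
    set c := Qt y * (polar Qt y x)⁻¹ with hc
    have hc0 : c ≠ 0 := mul_ne_zero hQy (inv_ne_zero hyx)
    have e : c * polar Qt y x = Qt y := by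
      rw [hc, mul_assoc, inv_mul_cancel₀ hyx, mul_one]
    have h1 : Qt (y + c • x) = 0 := by
      rw [Q_add, QuadraticMap.map_smul, hQx, polar_smul_right, smul_eq_mul, smul_eq_mul, e]
      linear_combination (Qt y) * h2
    have h3 : Qt (c • x) = 0 := by rw [QuadraticMap.map_smul, hQx, smul_zero]
    have h4 := key _ (Y.add_mem hy (Y.smul_mem c hx)) h1
    have h5 := key _ (Y.smul_mem c hx) h3
    have h6 : Φ.B (π (c • x)) (π (y + c • x)) ≠ 0 := by
      rw [← L.pol, polar_add_right, polar_smul_left, polar_comm, polar_self', h3, mul_zero, add_zero, smul_eq_mul]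
      exact mul_ne_zero hc0 hyx
    have h7 := Cen.add hH h4 h5 h6
    rw [← map_add] at h7
    have h8 : y + c • x + c • x = y := by
      rw [add_assoc, ← two_smul F (c • x), h2, zero_smul, add_zero]
    rwa [h8] at h7

/-! ### `PP = 0` -/

/-- the image of the group generated by the root groups -/
def RV (H : Subgroup (V ≃ₗ[F] V)) (Qt : QuadraticForm F Vt) (π : Vt →ₗ[F] V) (Ht : Subgroup (Vt ≃ₗ[F] Vt)) :
    Subgroup (V ≃ₗ[F] V) where
  carrier := {h | h ∈ H ∧ ∃ g ∈ RR Qt Ht, ∀ x, π (g x) = h (π x)}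
  mul_mem' := by
    rintro h h' ⟨hh, g, hg, e⟩ ⟨hh', g', hg', e'⟩
    refine ⟨H.mul_mem hh hh', g * g', Subgroup.mul_mem _ hg hg', fun x => ?_⟩
    show π (g (g' x)) = h (h' (π x))
    rw [e, e']
  one_mem' := ⟨H.one_mem, 1, Subgroup.one_mem _, fun x => rfl⟩
  inv_mem' := by
    rintro h ⟨hh, g, hg, e⟩
    refine ⟨H.inv_mem hh, g⁻¹, Subgroup.inv_mem _ hg, fun x => ?_⟩
    apply h.injective
    have h1 : h (h⁻¹ (π x)) = π x := h.apply_symm_apply _
    have h2 : g (g⁻¹ x) = x := g.apply_symm_apply _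
    rw [h1, ← e, h2]

omit [Finite F] [FiniteDimensional F Vt] in
theorem RV_conj (L : Lft Φ H Qt π Ht r) : ∀ h ∈ H, ∀ k ∈ RV H Qt π Ht, h⁻¹ * k * h ∈ RV H Qt π Ht := by
  rintro h hh k ⟨hk, g, hg, e⟩
  obtain ⟨u, hu, eu⟩ := L.ex h hh
  refine ⟨H.mul_mem (H.mul_mem (H.inv_mem hh) hk) hh, u⁻¹ * g * u, ?_, fun x => ?_⟩
  · have := RR_conj L.le_O (Ht.inv_mem hu) hg
    rwa [inv_inv] at this
  · apply h.injective
    show h (π (u⁻¹ (g (u x)))) = h (h⁻¹ (k (h (π x))))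
    have h1 : ∀ v, h (h⁻¹ v) = v := fun v => h.apply_symm_apply _
    have h2 : ∀ y, u (u⁻¹ y) = y := fun y => u.apply_symm_apply _
    rw [h1, ← eu, h2, e, eu]

theorem Lft.PP_eq_bot [FiniteDimensional F V] (L : Lft Φ H Qt π Ht r) (hirr : IrrG H)
    {W : Submodule F Vt} (hW : NondegOn Qt W) (hd8 : 8 ≤ Module.finrank F W) (hasW : HasW Qt Ht W)
    (hiso : ∀ p ∈ PP Qt Ht W, ∀ p' ∈ PP Qt Ht W, polar Qt p p' = 0) (hr : r ∉ PP Qt Ht W) : PP Qt Ht W = ⊥ := by
  have hmemR : ∀ {s t : Vt} (h : Lr Qt Ht s t), ∃ k ∈ RV H Qt π Ht, ∀ x, π (siegel Qt s t h.1 h.2.2.1 x) = k (π x) := by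
    intro s t h
    have h1 := h.2.2.2 1
    rw [one_smul] at h1
    obtain ⟨-, k, hk, e⟩ := (L.mem _).1 (h1.mem h.1 h.2.2.1)
    exact ⟨k, ⟨hk, _, mem_RR h, e⟩, e⟩
  obtain ⟨C, hC, hcomp⟩ := exists_compl (H := H) (R := RV H Qt π Ht) (RV_conj L) hirr
    (P := (PP Qt Ht W).map π) (by
      rintro k ⟨-, g, hg, e⟩ _ ⟨p, hp, rfl⟩
      exact ⟨g p, RR_inv_PP L.le_O hW hd8 hasW hiso g hg p hp, e p⟩)
  -- singular vectors of `W` are in `C`
  have hsing : ∀ x ∈ W, Qt x = 0 → π x ∈ C := by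
    intro x hx hQx
    by_cases hx0 : x = 0
    · rw [hx0, map_zero]; exact C.zero_mem
    have h1 := finrank_span_single_le (F := F) x
    obtain ⟨y, hy, hyo, hyn, hQy⟩ := ex_singG (Q := Qt) W (Submodule.span F {x}) (Submodule.span F {x}) (by omega)
    have hxy := hyo x (Submodule.mem_span_singleton_self x)
    obtain ⟨n, hn, hnx, hny⟩ := sepG hW (T := Submodule.span F {x})
      (by rw [Submodule.span_le, Set.singleton_subset_iff]; exact hx) hy hyn
    set v : Vt := (polar Qt y n)⁻¹ • n with hv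
    have hxv : polar Qt x v = 0 := by
      rw [hv, polar_smul_right, hnx x (Submodule.mem_span_singleton_self x), smul_zero]
    have hyv : polar Qt y v = 1 := by
      rw [hv, polar_smul_right, smul_eq_mul, inv_mul_cancel₀ hny]
    have hL := hasW.lr hx hy hQx hQy hxy
    obtain ⟨k, hk, ek⟩ := hmemR hL
    obtain ⟨_, ⟨p, hp, rfl⟩, c, hc, e⟩ : ∃ p ∈ (PP Qt Ht W).map π, ∃ c ∈ C, p + c = π v := by
      have : π v ∈ (PP Qt Ht W).map π ⊔ C := by rw [hcomp.sup_eq_top]; exact Submodule.mem_top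
      exact Submodule.mem_sup.1 this
    have hgv : siegel Qt x y hL.1 hL.2.2.1 v = v - x := by
      rw [siegel_apply, hxv, hyv, hQy]
      simp
    have hgp : siegel Qt x y hL.1 hL.2.2.1 p = p :=
      siegel_fix _ _ (mem_perp.1 hp.1 x hx) (mem_perp.1 hp.1 y hy)
    have h3 : k (π p) = π p := by rw [← ek, hgp]
    have h4 : k (π v) = π v - π x := by rw [← ek, hgv, map_sub]
    have hgc := hC k hk c hc
    rw [← e, map_add, h3] at h4
    have h5 : π x = c - k c := by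
      have h6 : k c = c - π x := by
        have h7 : π p + k c = π p + (c - π x) := by rw [h4]; abel
        exact add_left_cancel h7
      rw [h6]; abel
    rw [h5]
    exact C.sub_mem hc hgc
  have hG : Good (res Qt W) := good_res hW (by omega)
  obtain ⟨x, x', hxx⟩ := hG.exists_hyp
  have hWC : ∀ v ∈ W, π v ∈ C := by
    intro v hv
    exact sing_induction hxx (P := fun v : W => π (v : Vt) ∈ C) (fun a c ha hc => by
      show π ((a : Vt) + (c : Vt)) ∈ C
      rw [map_add]; exact C.add_mem ha hc)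
      (fun a ha => hsing a a.2 ha) ⟨v, hv⟩
  obtain ⟨z, w, hzw, hxz, hxw, hx'z, hx'w⟩ := hG.exists_hyp2 hxx
  rw [eq_bot_iff]
  intro p hp
  have hzw1 : polar Qt (z : Vt) (w : Vt) = 1 := hzw.pair
  have hQz : Qt (z : Vt) = 0 := hzw.left
  have hQw : Qt (w : Vt) = 0 := hzw.right
  have hxx1 : polar Qt (x : Vt) (x' : Vt) = 1 := hxx.pair
  have hQx : Qt (x : Vt) = 0 := hxx.left
  have hxz' : polar Qt (x : Vt) (z : Vt) = 0 := hxz
  have hxw' : polar Qt (x : Vt) (w : Vt) = 0 := hxw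
  have hx'z' : polar Qt (x' : Vt) (z : Vt) = 0 := hx'z
  have hx'w' : polar Qt (x' : Vt) (w : Vt) = 0 := hx'w
  set y1 : Vt := (z : Vt) - Qt p • (w : Vt) with hy1
  have hy1W : y1 ∈ W := W.sub_mem z.2 (W.smul_mem _ w.2)
  have hQy1 : Qt y1 = - Qt p := by
    rw [hy1, sub_eq_add_neg, Q_add, QuadraticMap.map_neg, QuadraticMap.map_smul, hQz, hQw, polar_neg_right,
      polar_smul_right, hzw1]
    simp
  have hxy1 : polar Qt (x : Vt) y1 = 0 := by
    rw [hy1, polar_sub_right, polar_smul_right, hxz', hxw', smul_zero, sub_zero]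
  have hxp : polar Qt (x : Vt) p = 0 := mem_perp.1 hp.1 x x.2
  have hL : Lr Qt Ht (x : Vt) (p + y1) := by
    refine ⟨hQx, ?_, ?_, fun c => ?_⟩
    · rw [Q_add, hQy1, polar_comm, mem_perp.1 hp.1 y1 hy1W]
      ring
    · rw [polar_add_right, hxp, hxy1, add_zero]
    · rw [smul_add]
      refine (hp.2 x x.2 hQx c).add (hasW x x.2 _ (W.smul_mem _ hy1W) hQx ?_)
      rw [polar_smul_right, hxy1, smul_zero]
  obtain ⟨k, hk, ek⟩ := hmemR hL
  have h1 := hC k hk (π x') (hWC x' x'.2)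
  rw [← ek, siegel_apply, hL.2.1, zero_mul, zero_smul, sub_zero, hxx1, one_smul, map_sub, map_add, map_add, map_smul] at h1
  have h2 : π p ∈ C := by
    have h3 : π p = (π x' + (π p + π y1) - polar Qt (p + y1) (x' : Vt) • π x) - π x' - π y1 +
        polar Qt (p + y1) (x' : Vt) • π x := by abel
    rw [h3]
    exact C.add_mem (C.sub_mem (C.sub_mem h1 (hWC x' x'.2)) (hWC _ hy1W)) (C.smul_mem _ (hWC x x.2))
  have h3 : π p ∈ (PP Qt Ht W).map π ⊓ C := ⟨⟨p, hp, rfl⟩, h2⟩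
  rw [hcomp.inf_eq_bot, Submodule.mem_bot] at h3
  obtain ⟨c, hc⟩ := L.ker p h3
  by_cases hc0 : c = 0
  · rw [hc, hc0, zero_smul]
    exact Submodule.zero_mem _
  · exfalso
    apply hr
    have h4 := (PP Qt Ht W).smul_mem c⁻¹ hp
    rwa [hc, smul_smul, inv_mul_cancel₀ hc0, one_smul] at h4

end lft

/-- **UF1**, modulo the existence of lifts -/
theorem uf1_of (hex : ExLft) : Cfsg.Agent.H141.Ux.UF1 := by
  intro F V _ _ _ _ _ Φ q H W hΦ h2 hH hirr hWn hd hS
  obtain ⟨Vt, _, _, _, Qt, π, Ht, r, L⟩ := hex F V Φ H hΦ h2 hH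
  obtain ⟨hq1, hq2, hS⟩ := hS
  have hchar : CharP F 2 := CharTwo.of_one_ne_zero_of_two_eq_zero one_ne_zero h2
  -- the lift of `W`
  let Y0 : Submodule F Vt := Wt Qt π q W (by
    rintro u hu w hw x y rfl rfl hx hy
    rw [Q_add, hx, hy, L.pol, hq1 _ hu _ hw]) hq2
  have hY0 : ∀ x, x ∈ Y0 ↔ π x ∈ W ∧ Qt x = q (π x) := fun x => Iff.rfl
  have hmap0 : Y0.map π = W := by
    apply le_antisymm
    · rintro _ ⟨x, hx, rfl⟩
      exact hx.1
    · intro w hw
      obtain ⟨x, hx, hQx⟩ := L.exists_lift hΦ h2 w (q w)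
      exact ⟨x, ⟨by rw [hx]; exact hw, by rw [hQx, hx]⟩, hx⟩
  have hnd0 : NondegOn Qt Y0 := by
    intro x hx h
    have h3 : π x = 0 := by
      refine hWn _ hx.1 fun w hw => ?_
      rw [← hmap0] at hw
      obtain ⟨y, hy, rfl⟩ := hw
      rw [← L.pol]
      exact h y hy
    have h4 : Qt x = Qt 0 := by
      rw [hx.2, h3, QuadraticMap.map_zero]
      have := hq2 0 0 W.zero_mem
      rw [zero_smul] at this
      rw [this]; ring
    exact L.inj hΦ (by rw [h3, map_zero]) h4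
  have hfr0 : 12 ≤ Module.finrank F Y0 := by
    rw [← L.finrank_map hnd0, hmap0]
    exact hd
  have hhas0 : HasW Qt Ht Y0 := by
    refine hasW_of_sing hnd0 (by omega) fun u hu w hw hQu hQw huw => ?_
    refine L.has_of hQu huw ?_
    obtain ⟨g, hg, h3⟩ := hS _ hu.1 _ hw.1 (by rw [← hu.2, hQu]) (by rw [← hw.2, hQw]) (by rw [← L.pol]; exact huw)
    refine ⟨g, hg, fun v => ?_⟩
    have h4 : g v = Cfsg.Agent.H141.Ux.sr Φ (π u) (π w) v := by rw [← h3]; rfl
    have h5 : Cfsg.Agent.H141.Ux.sr Φ (π u) (π w) v = v + Φ.B v (π u) • π w + Φ.B v (π w) • π u := rfl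
    rw [h4, h5, hQw, zero_mul, zero_smul, sub_zero, B_comm hΦ h2 v, B_comm hΦ h2 v, sub_eq_add_neg, ← neg_smul]
    congr 2
    linear_combination (Φ.B (π w) v) * h2
  -- a maximal one
  have wf : WellFounded ((· > ·) : Submodule F Vt → Submodule F Vt → Prop) := wellFounded_gt
  obtain ⟨Y, ⟨hY, hasY, hd12⟩, hmax⟩ := wf.has_min
    {Y : Submodule F Vt | NondegOn Qt Y ∧ HasW Qt Ht Y ∧ 12 ≤ Module.finrank F Y} ⟨Y0, hnd0, hhas0, hfr0⟩
  have hmax' : ∀ Y' : Submodule F Vt, NondegOn Qt Y' → HasW Qt Ht Y' → Y ≤ Y' → Y' = Y := by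
    intro Y' h1 h2 h3
    by_contra hne
    exact hmax Y' ⟨h1, h2, hd12.trans (Submodule.finrank_mono h3)⟩ (lt_of_le_of_ne h3 (Ne.symm hne))
  have hiso := iso_of_max hY (by omega) hasY hmax'
  by_cases hr : r ∈ PP Qt Ht Y
  · -- `H` contains all transvections of `π Y`
    rcases gen_ctr hΦ hH hirr (L.ctr hΦ h2 hH hY (by omega) hr) (by rw [L.finrank_map hY]; omega) with h | ⟨D, hD, hYD⟩
    · left
      obtain ⟨σ, hσ⟩ := π.exists_rightInverse_of_surjective (LinearMap.range_eq_top.2 L.surj)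
      have hσ' : ∀ v, π (σ v) = v := fun v => congrArg (fun f => f v) hσ
      have hpol : ∀ u v, polar (Qt.comp σ) u v = Φ.B u v := by
        intro u v
        have : polar (Qt.comp σ) u v = polar Qt (σ u) (σ v) := by
          simp only [polar, QuadraticMap.comp_apply, map_add]
        rw [this, L.pol, hσ', hσ']
      refine ⟨Qt.comp σ, hpol, fun g hg => h ?_⟩
      have hg' := E_le_O hg
      exact ⟨fun x y => by rw [← hpol, ← hpol, polar_map hg'], fun x => by rw [hΦ.q, hΦ.q]⟩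
    · right
      refine ⟨D, hD, ?_⟩
      have h3 := Submodule.finrank_mono hYD
      rw [L.finrank_map hY] at h3
      omega
  · have hbot := L.PP_eq_bot hirr hY (by omega) hasY hiso hr
    by_cases htop : Y.map π = ⊤
    · -- the lifts form a complement of `r`
      left
      have hinj : Function.Injective (π.domRestrict Y) := by
        rw [← LinearMap.ker_eq_bot, eq_bot_iff]
        rintro ⟨x, hx⟩ h
        rw [Submodule.mem_bot]
        exact Subtype.ext (L.inj_on hY hx (LinearMap.mem_ker.1 h))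
      have hsurj : Function.Surjective (π.domRestrict Y) := by
        intro v
        have : v ∈ Y.map π := by rw [htop]; trivial
        obtain ⟨x, hx, e⟩ := this
        exact ⟨⟨x, hx⟩, e⟩
      let e : Y ≃ₗ[F] V := LinearEquiv.ofBijective (π.domRestrict Y) ⟨hinj, hsurj⟩
      have he : ∀ y : Y, e y = π y := fun y => rfl
      have hes : ∀ v, π ((e.symm v : Y) : Vt) = v := fun v => by rw [← he, LinearEquiv.apply_symm_apply]
      have hpol : ∀ u v, polar ((res Qt Y).comp (e.symm : V →ₗ[F] Y)) u v = Φ.B u v := by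
        intro u v
        have : polar ((res Qt Y).comp (e.symm : V →ₗ[F] Y)) u v = polar Qt ((e.symm u : Y) : Vt) ((e.symm v : Y) : Vt) := by
          simp only [polar, QuadraticMap.comp_apply, map_add]
          rfl
        rw [this, L.pol, hes, hes]
      have hQv : ∀ v, ((res Qt Y).comp (e.symm : V →ₗ[F] Y)) v = Qt ((e.symm v : Y) : Vt) := fun v => rfl
      refine ⟨(res Qt Y).comp (e.symm : V →ₗ[F] Y), hpol, ?_⟩
      rw [E, Subgroup.closure_le]
      rintro _ ⟨u, w, hu, hw, rfl⟩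
      have hu' : Qt ((e.symm u : Y) : Vt) = 0 := by rw [← hQv]; exact hu
      have hw' : polar Qt ((e.symm u : Y) : Vt) ((e.symm w : Y) : Vt) = 0 := by
        rw [L.pol, hes, hes, ← hpol]; exact hw
      obtain ⟨g, hg, h3⟩ := L.exists_of (hasY _ (e.symm u).2 _ (e.symm w).2 hu' hw')
      have h4 : siegel ((res Qt Y).comp (e.symm : V →ₗ[F] Y)) u w hu hw = g := by
        ext v
        rw [siegel_apply, h3, hpol, hpol, hes, hes, hQv]
      rw [h4]
      exact hg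
    · right
      refine ⟨Y.map π, ⟨htop, L.ndOn hY, fun h hh => ?_⟩, by rw [L.finrank_map hY]; omega⟩
      obtain ⟨g, hg, eg⟩ := L.ex h hh
      rcases block L.le_O hY (by omega) hasY hbot hg with h1 | h1
      · left
        refine Submodule.eq_of_le_of_finrank_eq ?_ (LinearEquiv.finrank_map_eq h _)
        rintro _ ⟨_, ⟨x, hx, rfl⟩, rfl⟩
        exact ⟨g x, h1 x hx, eg x⟩
      · right
        rintro _ ⟨_, ⟨x, hx, rfl⟩, rfl⟩ _ ⟨y, hy, rfl⟩
        show Φ.B (h (π x)) (π y) = 0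
        rw [← eg, ← L.pol, polar_comm]
        exact mem_perp.1 (h1 x hx) y hy

end Cfsg.Agent.H124.UX
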