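import Cfsg.Agent.H124.UX.UF1
import Cfsg.Agent.H994.Ux.Lift

/-!
# UX (S5716): UF1 (growth, symplectic groups, characteristic two; helper124 with the lift of helper994)
-/

set_option autoImplicit false

namespace Cfsg.Agent.H124.UX

open QuadraticMap Cfsg.Agent.LieClassical.OrthCore Cfsg.Agent.H847.Bs Cfsg.Agent.H994.Ux.Lift

theorem exLft : ExLft := by
  intro F V _ _ _ _ _ Φ H hΦ h2 hH
  obtain ⟨Q₀, hQ⟩ := exists_form hΦ h2
  refine ⟨V × F, inferInstance, inferInstance, inferInstance, Qt Q₀, LinearMap.fst F V F, Lf h2 Q₀ H, (0, 1), ?_⟩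
  refine
    { surj := LinearMap.fst_surjective
      pol := fun x y => ?_
      kr := rfl
      Qr := ?_
      ker := fun x hx => ⟨x.2, ?_⟩
      mem := fun g => ?_
      ex := fun h hh => ?_ }
  · rw [polar_Qt h2, hQ]
    rfl
  · rw [Qt_apply, QuadraticMap.map_zero]
    ring
  · refine Prod.ext ?_ ?_
    · show x.1 = x.2 • (0 : V)
      rw [smul_zero]
      exact hx
    · show x.2 = x.2 • (1 : F)
      rw [smul_eq_mul, mul_one]
  · constructor
    · intro hg
      refine ⟨Lf_le h2 H hg, ?_⟩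
      obtain ⟨h, hh, rfl⟩ := (mem_Lf h2).1 hg
      exact ⟨h, hh, fun x => rfl⟩
    · rintro ⟨hg, h, hh, e⟩
      exact mem_Lf_of h2 hg hh e
  · have h1 : h ∈ SpQ Q₀ := (mem_Iso_iff hΦ hQ).1 (hH hh)
    exact ⟨lft h2 ⟨h, h1⟩, (lft_mem_Lf h2).2 hh, fun x => rfl⟩

/-- **UF1** -/
theorem uf1 : Cfsg.Agent.H141.Ux.UF1 := uf1_of exLft

end Cfsg.Agent.H124.UX

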